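import Cfsg.Agent.Lib.FS.Dk

/-!
# Unipotent classes of `O(V)` do not split in `Ω(V)` in dimension `2 mod 4` (`NSStmt`)
-/

set_option autoImplicit false
set_option linter.unusedSectionVars false
set_option linter.style.haveILetI false

namespace Cfsg.Agent.FS

open Module QS Polynomial

universe u

namespace DK

variable {F V : Type*} [Field F] [CharP F 2] [AddCommGroup V] [Module F V] [Finite V]
  {q : QS F V}

/-- Wall's parametrization -/
theorem wall {P : Type*} [AddCommGroup P] [Module F P] [Module.Finite F P] (Φ : P →ₗ[F] V)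
    (hΦ : Function.Injective Φ) (θ : P →ₗ[F] P →ₗ[F] F) (hθ : ∀ a, (∀ b, θ a b = 0) → a = 0)
    (hQ : ∀ a, θ a a = q.Q (Φ a)) (u : q.O) (σ : P →ₗ[F] P) (hσ : ∀ a, Φ (σ a) = u (Φ a))
    (hθσ : ∀ a b, θ (σ a) (σ b) = θ a b) :
    ∃ c : q.O, c * u = u * c ∧ q.dk c = finrank F P := by
  have h1 : Function.Injective θ := (injective_iff_map_eq_zero _).2 fun a ha =>
    hθ a fun b => by simp [ha]
  let E : P ≃ₗ[F] Module.Dual F P := LinearEquiv.ofBijective θ ⟨h1,
    (LinearMap.injective_iff_surjective_of_finrank_eq_finrank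
      (Subspace.dual_finrank_eq (K := F) (V := P)).symm).1 h1⟩
  let T : V →ₗ[F] P := E.symm.toLinearMap ∘ₗ q.B.compl₂ Φ
  have hT : ∀ v a, θ (T v) a = q.B v (Φ a) := fun v a =>
    LinearMap.congr_fun (E.apply_symm_apply (q.B.compl₂ Φ v)) a
  have hTs : Function.Surjective T := fun a => by
    obtain ⟨g, hg⟩ := Φ.exists_leftInverse_of_injective (LinearMap.ker_eq_bot.2 hΦ)
    obtain ⟨y, hy⟩ := q.exists_dual ((θ a).comp g)
    refine ⟨y, h1 (LinearMap.ext fun b => ?_)⟩
    rw [hT, hy, LinearMap.comp_apply, ← LinearMap.comp_apply g, hg, LinearMap.id_apply]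
  have hσs : Function.Surjective σ := LinearMap.injective_iff_surjective.1 fun a b h =>
    hΦ ((u : V ≃ₗ[F] V).injective (by rw [← hσ, ← hσ, h]))
  have hc : ∀ x, q.Q ((LinearMap.id + Φ ∘ₗ T : V →ₗ[F] V) x) = q.Q x := fun x => by
    rw [LinearMap.add_apply, LinearMap.id_apply, LinearMap.comp_apply, q.add, ← hQ, hT, add_assoc,
      CharTwo.add_self_eq_zero, add_zero]
  refine ⟨mkO _ hc, O_ext fun x => ?_, ?_⟩
  · have h2 : T (u x) = σ (T x) := h1 (LinearMap.ext fun b => by
      obtain ⟨b, rfl⟩ := hσs b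
      rw [hT, hθσ, hT, hσ, isoB])
    simp [h2, hσ]
  · have h2 : q.act (mkO _ hc) - 1 = Φ ∘ₗ T := LinearMap.ext fun x => by simp
    rw [dk, h2, LinearMap.range_comp_of_range_eq_top _ (LinearMap.range_eq_top.2 hTs),
      LinearMap.finrank_range_of_inj hΦ]

theorem exists_last {R Z : Type*} [CommRing R] [AddCommGroup Z] [Module R Z] {n : R} {k : ℕ}
    (hn : n ^ k = 0) {z : Z} (hz : z ≠ 0) : ∃ i, n ^ i • z ≠ 0 ∧ n • n ^ i • z = 0 := by
  classical
  have h1 : ∃ i, n ^ i • z = 0 := ⟨k, by rw [hn, zero_smul]⟩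
  obtain ⟨i, hi⟩ := Nat.exists_eq_succ_of_ne_zero (show Nat.find h1 ≠ 0 from fun e => by
    have := Nat.find_spec h1
    rw [e, pow_zero, one_smul] at this
    exact hz this)
  refine ⟨i, Nat.find_min h1 (by omega), ?_⟩
  rw [← mul_smul, ← pow_succ', ← Nat.succ_eq_add_one, ← hi]
  exact Nat.find_spec h1

/-- the ring `F[u]` of a unipotent isometry `u` of nilpotency index `k + 1` -/
structure Dat (u : q.O) (k : ℕ) (R : Type*) [CommRing R] [Algebra F R] [Module R V] where
  pb : PowerBasis F R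
  s : R
  st : R →ₐ[F] R
  dim : pb.dim = k + 1
  mul_s : pb.gen * s = 1
  act : ∀ v, pb.gen • v = u v
  st_gen : st pb.gen = s
  nil : (pb.gen + 1) ^ (k + 1) = 0
  soc : ∀ r, (pb.gen + 1) * r = 0 → ∃ c : F, r = c • (pb.gen + 1) ^ k
  top : ∃ v : V, (pb.gen + 1) ^ k • v ≠ 0

namespace Dat

variable {u : q.O} {k : ℕ} {R : Type*} [CommRing R] [Algebra F R] [Module R V]
  [IsScalarTower F R V] (D : Dat u k R)

/-- the generator of the socle -/
def m : R := (D.pb.gen + 1) ^ k

variable (F) in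
include F in
theorem two : (2 : R) = 0 := by
  rw [← map_ofNat (algebraMap F R) 2, two_zero, map_zero]

theorem st_s : D.st D.s = D.pb.gen := by
  have h1 := congrArg D.st D.mul_s
  rw [map_mul, D.st_gen, map_one] at h1
  linear_combination D.pb.gen * h1 - D.st D.s * D.mul_s

theorem st_st (r : R) : D.st (D.st r) = r :=
  DFunLike.congr_fun (D.pb.algHom_ext (f := D.st.comp D.st) (g := AlgHom.id F R)
    (by simp [D.st_gen, D.st_s])) r

theorem s_act (v : V) : D.s • v = u⁻¹ v := by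
  conv_lhs => rw [← apply_inv u v, ← D.act, ← mul_smul, mul_comm, D.mul_s, one_smul]

theorem adj (r : R) (x y : V) : q.B (r • x) y = q.B x (D.st r • y) := by
  obtain ⟨p, rfl⟩ := D.pb.exists_eq_aeval' r
  induction p using Polynomial.induction_on generalizing x with
  | C a => simp
  | add p p' hp hp' => simp [add_smul, hp, hp']
  | monomial n a ih =>
    rw [pow_succ, ← mul_assoc, map_mul _ _ X, aeval_X, mul_smul, ih, map_mul D.st, D.st_gen, D.act,
      B_left, mul_comm _ D.s, mul_smul, D.s_act]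

theorem adj' (r : R) (x y : V) : q.B x (r • y) = q.B (D.st r • x) y := by
  rw [D.adj, D.st_st]

theorem gen_mul_m : D.pb.gen * D.m = D.m := by
  have h1 := D.nil
  rw [pow_succ', ← m] at h1
  linear_combination h1 - D.m * two F (R := R)

theorem s_mul_m : D.s * D.m = D.m := by
  linear_combination D.m * D.mul_s - D.s * D.gen_mul_m

theorem s_pow_mul_m (j : ℕ) : D.s ^ j * D.m = D.m := by
  induction j with
  | zero => simp
  | succ j ih => rw [pow_succ, mul_assoc, D.s_mul_m, ih]

theorem st_m : D.st D.m = D.m := by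
  have h1 : D.s + 1 = D.s * (D.pb.gen + 1) := by linear_combination -D.mul_s
  conv_lhs => rw [m, map_pow, map_add, map_one, D.st_gen, h1, mul_pow]
  exact D.s_pow_mul_m k

theorem m_ne : D.m ≠ 0 := fun h => by
  obtain ⟨v, hv⟩ := D.top
  exact hv (by rw [← m, h, zero_smul])

theorem exists_mul {r : R} (hr : r ≠ 0) : ∃ r', r' * r = D.m := by
  obtain ⟨i, h1, h2⟩ := exists_last D.nil hr
  obtain ⟨c, hc⟩ := D.soc _ h2
  have hc0 : c ≠ 0 := by
    rintro rfl
    exact h1 (by rw [hc, zero_smul])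
  refine ⟨c⁻¹ • (D.pb.gen + 1) ^ i, ?_⟩
  rw [smul_mul_assoc, ← smul_eq_mul, hc, inv_smul_smul₀ hc0, m]

variable (F R) in
/-- the cyclic submodule -/
def cyc (x : V) : R →ₗ[F] V := (LinearMap.toSpanSingleton R V x).restrictScalars F

theorem cyc_apply (x : V) (r : R) : cyc F R x r = r • x := rfl

theorem cyc_inj {x : V} (hx : D.m • x ≠ 0) : Function.Injective (cyc F R x) :=
  (injective_iff_map_eq_zero _).2 fun r hr => by
    by_contra h
    obtain ⟨r', hr'⟩ := D.exists_mul h
    exact hx (by rw [← hr', mul_smul, ← cyc_apply (F := F) x r, hr, smul_zero])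

include D in
theorem finrank_eq : finrank F R = k + 1 := D.pb.finrank.trans D.dim

theorem exists_gam : ∃ x y : V, q.B (D.m • x) y ≠ 0 := by
  obtain ⟨x, hx⟩ := D.top
  obtain ⟨y, hy⟩ := q.exists_B_one hx
  exact ⟨x, y, by rw [m, hy]; exact one_ne_zero⟩

theorem b_self (j : ℕ) : ∀ x : V, q.B ((D.pb.gen + D.s) ^ j • x) x = 0 := by
  have h0 : D.st (D.pb.gen + D.s) = D.pb.gen + D.s := by
    rw [map_add, D.st_gen, D.st_s, add_comm]
  induction j using Nat.twoStepInduction with
  | zero => simp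
  | one =>
    intro x
    rw [pow_one, add_smul, map_add, LinearMap.add_apply, D.adj D.s, D.st_s, q.symm x,
      CharTwo.add_self_eq_zero]
  | more j ih _ =>
    intro x
    rw [pow_succ', pow_succ, mul_smul, mul_smul, D.adj, h0, ih]

include D in
/-- odd nilpotency index -/
theorem odd {j : ℕ} (hk : k = 2 * (j + 1)) : ∃ c : q.O, c * u = u * c ∧ Odd (q.dk c) := by
  haveI := D.pb.finite
  have h0 : D.st (D.pb.gen + D.s) = D.pb.gen + D.s := by
    rw [map_add, D.st_gen, D.st_s, add_comm]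
  have hb : (D.pb.gen + D.s) ^ (j + 1) = D.m := by
    have h1 : D.pb.gen + D.s = D.s * (D.pb.gen + 1) ^ 2 := by
      linear_combination -(D.pb.gen + 2) * D.mul_s - two F (R := R)
    rw [h1, mul_pow, ← pow_mul, ← hk]
    exact D.s_pow_mul_m _
  obtain ⟨x, hx, hx'⟩ : ∃ x : V, D.m • x ≠ 0 ∧
      q.B (((D.pb.gen + D.s) ^ j * D.pb.gen) • x) x ≠ 0 := by
    by_contra hc
    push Not at hc
    obtain ⟨x, y, h⟩ := D.exists_gam
    have h1 : D.m • x ≠ 0 := fun e => h (by simp [e])
    have h2 : D.m • y ≠ 0 := fun e => h (by rw [D.adj, D.st_m, e, map_zero])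
    have h3 : D.m • (x + y) ≠ 0 := fun e => h (by
      rw [smul_add] at e
      rw [veq_of_add F e, ← hb, D.b_self])
    have h4 := hc _ h3
    simp only [smul_add, map_add, LinearMap.add_apply, hc x h1, hc y h2, zero_add, add_zero] at h4
    rw [D.adj _ y, q.symm y, map_mul, map_pow, h0, D.st_gen, ← LinearMap.add_apply, ← map_add,
      ← add_smul, ← mul_add, add_comm D.s, ← pow_succ, hb] at h4
    exact h h4
  let c : ℕ → F := fun i => if i = j + 1 then q.Q x else
    if j + 1 < i then q.B ((D.s ^ (j + 1) * D.pb.gen ^ i) • x) x else 0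
  let l0 : R →ₗ[F] F := D.pb.basis.constr F fun i => c i
  have hl0 : ∀ i, i < k + 1 → l0 (D.pb.gen ^ i) = c i := fun i hi => by
    have := D.pb.basis.constr_basis F (fun i => c i) ⟨i, D.dim ▸ hi⟩
    rwa [D.pb.basis_eq_pow] at this
  let l : R →ₗ[F] F := l0 ∘ₗ LinearMap.mulLeft F (D.pb.gen ^ (j + 1))
  have hts : ∀ i, D.pb.gen ^ i * D.s ^ i = 1 := fun i => by rw [← mul_pow, D.mul_s, one_pow]
  have hl : ∀ i, i < k + 1 → l (D.s ^ (j + 1) * D.pb.gen ^ i) = c i := fun i hi => by
    rw [← hl0 i hi]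
    show l0 (_ * _) = _
    rw [← mul_assoc, hts, one_mul]
  have hl1 : l 1 = q.Q x := by
    have := hl (j + 1) (by omega)
    rw [mul_comm, hts] at this
    simp [this, c]
  have hls : ∀ r, l r + l (D.st r) = q.B (r • x) x := by
    have h1 : (l + l ∘ₗ D.st.toLinearMap) ∘ₗ LinearMap.mulLeft F (D.s ^ (j + 1)) =
        (q.B.flip x ∘ₗ cyc F R x) ∘ₗ LinearMap.mulLeft F (D.s ^ (j + 1)) := by
      refine D.pb.basis.ext fun i => ?_
      obtain ⟨i, hi⟩ := i
      rw [D.dim] at hi
      rw [D.pb.basis_eq_pow]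
      obtain ⟨i', hi'⟩ : ∃ i', i + i' = 2 * (j + 1) := ⟨2 * (j + 1) - i, by omega⟩
      have h2 : D.st (D.s ^ (j + 1) * D.pb.gen ^ i) = D.s ^ (j + 1) * D.pb.gen ^ i' := by
        have h3 : D.pb.gen ^ i * D.pb.gen ^ i' = D.pb.gen ^ (j + 1) * D.pb.gen ^ (j + 1) := by
          rw [← pow_add, ← pow_add, hi', two_mul]
        rw [map_mul, map_pow, map_pow, D.st_s, D.st_gen]
        linear_combination (-D.s ^ (j + 1) * D.s ^ i) * h3 - D.pb.gen ^ (j + 1) * D.s ^ i * hts (j + 1)
          + D.s ^ (j + 1) * D.pb.gen ^ i' * hts i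
      show l (D.s ^ (j + 1) * D.pb.gen ^ i) + l (D.st (D.s ^ (j + 1) * D.pb.gen ^ i)) =
        q.B ((D.s ^ (j + 1) * D.pb.gen ^ i) • x) x
      rw [h2, hl i hi, hl i' (by omega)]
      rcases lt_trichotomy i (j + 1) with h | h | h
      · simp only [c, if_neg h.ne, if_neg h.not_gt, if_neg (show i' ≠ j + 1 by omega),
          if_pos (show j + 1 < i' by omega), zero_add]
        rw [← h2, ← D.adj', q.symm]
      · subst h
        obtain rfl : i' = j + 1 := by omega
        rw [CharTwo.add_self_eq_zero, mul_comm, hts, one_smul, q.self]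
      · simp only [c, if_neg h.ne', if_pos h, if_neg (show i' ≠ j + 1 by omega),
          if_neg (show ¬ j + 1 < i' by omega), add_zero]
    intro r
    have h2 := LinearMap.congr_fun h1 (D.pb.gen ^ (j + 1) * r)
    simp only [LinearMap.comp_apply, LinearMap.mulLeft_apply] at h2
    rwa [← mul_assoc, mul_comm (D.s ^ _), hts, one_mul] at h2
  have hlm : l D.m ≠ 0 := by
    rwa [← hls, map_mul D.st, map_pow, h0, D.st_gen, ← map_add, ← mul_add, ← pow_succ, hb] at hx'
  let θ : R →ₗ[F] R →ₗ[F] F := ((LinearMap.mul F R).compl₂ D.st.toLinearMap).compr₂ l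
  have hθ : ∀ a b, θ a b = l (a * D.st b) := fun _ _ => rfl
  obtain ⟨c, hc, hc'⟩ := wall (cyc F R x) (D.cyc_inj hx) θ (fun a ha => by
      by_contra h
      obtain ⟨r, hr⟩ := D.exists_mul h
      exact hlm (by rw [← hr, ← ha (D.st r), hθ, D.st_st, mul_comm]))
    (fun a => by
      have ha : a ∈ Submodule.span F (Set.range D.pb.basis) := D.pb.basis.mem_span a
      induction ha using Submodule.span_induction with
      | mem a ha =>
        obtain ⟨i, rfl⟩ := ha
        rw [D.pb.basis_eq_pow, hθ, map_pow, D.st_gen, hts, hl1, cyc_apply]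
        generalize (i : ℕ) = i
        induction i with
        | zero => simp
        | succ i ih => rw [pow_succ', mul_smul, D.act, isoQ, ih]
      | zero => simp
      | add a b _ _ ha hb =>
        have h1 := hls (a * D.st b)
        rw [map_mul D.st, D.st_st, mul_comm (D.st a), ← hθ, ← hθ, mul_comm a, mul_smul,
          ← D.adj'] at h1
        simp only [map_add, LinearMap.add_apply, q.add, ha, hb, cyc_apply, ← h1]
        ring
      | smul c a _ ha =>
        simp only [map_smul, LinearMap.smul_apply, q.smul, ha, smul_eq_mul]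
        ring)
    u (LinearMap.mulLeft F D.pb.gen) (fun a => by
      rw [cyc_apply, cyc_apply, LinearMap.mulLeft_apply, mul_smul, D.act])
    fun a b => by
      rw [hθ, hθ, LinearMap.mulLeft_apply, LinearMap.mulLeft_apply, map_mul D.st, D.st_gen]
      congr 1
      linear_combination a * D.st b * D.mul_s
  exact ⟨c, hc, by rw [hc', D.finrank_eq, hk]; exact odd_two_mul_add_one _⟩

/-- a single Jordan block splits off -/
theorem single {x : V} (hx : q.B (D.m • x) x ≠ 0) : ∃ c : q.O, c * u = u * c ∧ q.dk c = k := by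
  haveI := D.pb.finite
  have hx0 : D.m • x ≠ 0 := fun e => hx (by simp [e])
  have hW : q.NDeg (LinearMap.range (cyc F R x)) := by
    rintro _ ⟨r, rfl⟩ h
    by_contra h0
    obtain ⟨r', hr'⟩ := D.exists_mul (r := r) fun e => h0 (by simp [e])
    exact hx (by rw [← hr', mul_smul, D.adj]; exact h _ ⟨_, rfl⟩)
  have hu : ∀ v ∈ LinearMap.range (cyc F R x), u v ∈ LinearMap.range (cyc F R x) := by
    rintro _ ⟨r, rfl⟩
    exact ⟨D.pb.gen * r, by rw [cyc_apply, cyc_apply, mul_smul, D.act]⟩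
  refine ⟨sumHom hW (resO hW u hu, 1), ?_, ?_⟩
  · nth_rewrite 2 3 [← sumHom_resO hW u hu]
    rw [← map_mul, ← map_mul]
    simp
  · have h1 : LinearMap.range (q.act (sumHom hW (resO hW u hu, 1)) - 1) =
        (LinearMap.range (LinearMap.mulLeft F (D.pb.gen + 1))).map (cyc F R x) := by
      have h2 : ∀ r, ∀ b ∈ q.perp (LinearMap.range (cyc F R x)),
          (q.act (sumHom hW (resO hW u hu, 1)) - 1) (cyc F R x r + b) =
            cyc F R x ((D.pb.gen + 1) * r) := fun r b hb => by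
        rw [LinearMap.sub_apply, act_apply, map_add, sumHom_left hW _ ⟨r, rfl⟩, sumHom_right hW _ hb]
        simp only [resO_apply, one_apply, Module.End.one_apply, add_sub_add_right_eq_sub]
        simp [cyc_apply, add_mul, add_smul, mul_smul, D.act, vsub F]
      ext v
      constructor
      · rintro ⟨w, rfl⟩
        obtain ⟨_, ⟨r, rfl⟩, b, hb, rfl⟩ := exists_add_perp hW w
        exact ⟨_, ⟨r, rfl⟩, (h2 r b hb).symm⟩
      · rintro ⟨_, ⟨r, rfl⟩, rfl⟩
        exact ⟨_, h2 r 0 (Submodule.zero_mem _)⟩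
    have h2 : LinearMap.ker (LinearMap.mulLeft F (D.pb.gen + 1)) = Submodule.span F {D.m} := by
      ext r
      rw [Submodule.mem_span_singleton, LinearMap.mem_ker, LinearMap.mulLeft_apply]
      constructor
      · intro h
        obtain ⟨c, hc⟩ := D.soc r h
        exact ⟨c, hc.symm⟩
      · rintro ⟨c, rfl⟩
        rw [mul_smul_comm, m, ← pow_succ', D.nil, smul_zero]
    have h3 := LinearMap.finrank_range_add_finrank_ker (LinearMap.mulLeft F (D.pb.gen + 1))
    rw [h2, finrank_span_singleton D.m_ne, D.finrank_eq] at h3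
    rw [dk, h1, ← (Submodule.equivMapOfInjective _ (D.cyc_inj hx0) _).finrank_eq]
    omega

/-- a pair of Jordan blocks splits off -/
theorem pair (h : ∀ x : V, q.B (D.m • x) x = 0) : ∃ W : Submodule F V, q.NDeg W ∧
    (∀ v ∈ W, u v ∈ W) ∧ finrank F W = 2 * (k + 1) := by
  haveI := D.pb.finite
  obtain ⟨x, y, hxy⟩ := D.exists_gam
  have hyx : q.B (D.m • y) x ≠ 0 := by rwa [D.adj, D.st_m, q.symm]
  let Φ : R × R →ₗ[F] V := (cyc F R x).coprod (cyc F R y)
  have hΦ : ∀ z : R × R, Φ z = z.1 • x + z.2 • y := fun _ => rfl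
  have hΦs : ∀ (r : R) (z : R × R), Φ (r • z) = r • Φ z := fun r z => by
    simp [hΦ, mul_smul]
  have h1 : ∀ z, (∀ w ∈ LinearMap.range Φ, q.B (Φ z) w = 0) → z = 0 := by
    intro z hz
    by_contra h0
    obtain ⟨i, h1, h2⟩ := exists_last D.nil h0
    obtain ⟨a, ha⟩ := D.soc _ (congrArg Prod.fst h2)
    obtain ⟨b, hb⟩ := D.soc _ (congrArg Prod.snd h2)
    have h3 : ∀ w, q.B (Φ ((D.pb.gen + 1) ^ i • z)) (Φ w) = 0 := fun w => by
      rw [hΦs, D.adj, ← hΦs]
      exact hz _ ⟨_, rfl⟩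
    have h4 := h3 (1, 0)
    have h5 := h3 (0, 1)
    rw [hΦ, hΦ, ha, hb, ← m] at h4 h5
    simp only [smul_assoc, one_smul, zero_smul, add_zero, zero_add, map_add, map_smul,
      LinearMap.add_apply, LinearMap.smul_apply, h, smul_eq_mul, mul_zero] at h4 h5
    refine h1 (Prod.ext ?_ ?_)
    · rw [ha, (mul_eq_zero.1 h5).resolve_right hxy, zero_smul]
      rfl
    · rw [hb, (mul_eq_zero.1 h4).resolve_right hyx, zero_smul]
      rfl
  refine ⟨LinearMap.range Φ, ?_, ?_, ?_⟩
  · rintro _ ⟨z, rfl⟩ hz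
    rw [h1 z hz, map_zero]
  · rintro _ ⟨z, rfl⟩
    exact ⟨D.pb.gen • z, by rw [hΦs, D.act]⟩
  · rw [LinearMap.finrank_range_of_inj ((injective_iff_map_eq_zero _).2 fun z hz =>
      h1 z fun w _ => by simp [hz]), Module.finrank_prod, D.finrank_eq, two_mul]

end Dat

theorem exists_dat {F V : Type u} [Field F] [CharP F 2] [AddCommGroup V] [Module F V] [Finite V]
    [Nontrivial V] {q : QS F V} (u : q.O) (hu : ∃ k : ℕ, u ^ 2 ^ k = 1) :
    ∃ (k : ℕ) (R : Type u) (_ : CommRing R) (_ : Algebra F R) (_ : Module R V)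
      (_ : IsScalarTower F R V), Nonempty (Dat u k R) := by
  classical
  haveI : Fact (Nat.Prime 2) := ⟨Nat.prime_two⟩
  haveI : CharP (Module.End F V) 2 := charP_of_injective_algebraMap (algebraMap F _).injective 2
  have h1 : ∃ k, (q.act u + 1) ^ k = 0 := by
    obtain ⟨k, hk⟩ := hu
    refine ⟨2 ^ k, ?_⟩
    rw [add_pow_char_pow_of_commute _ _ (Commute.one_right _), ← actHom_apply, ← map_pow, hk,
      map_one, one_pow, CharTwo.add_self_eq_zero]
  obtain ⟨k, hk⟩ := Nat.exists_eq_succ_of_ne_zero (show Nat.find h1 ≠ 0 from fun e => by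
    have := Nat.find_spec h1
    rw [e, pow_zero] at this
    exact one_ne_zero this)
  have h2 : (q.act u + 1) ^ (k + 1) = 0 := by
    have := Nat.find_spec h1
    rwa [hk] at this
  have h3 : (q.act u + 1) ^ k ≠ 0 := Nat.find_min h1 (by omega)
  let f : F[X] := (X + C 1) ^ (k + 1)
  have hf : f.Monic := (monic_X_add_C 1).pow _
  let φ : AdjoinRoot f →ₐ[F] Module.End F V := Ideal.Quotient.liftₐ _ (aeval (q.act u))
    fun a ha => by
      obtain ⟨b, rfl⟩ := Ideal.mem_span_singleton.1 ha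
      simp [f, h2]
  have hφ : φ (AdjoinRoot.root f) = q.act u := aeval_X _
  letI : Module (AdjoinRoot f) V := Module.compHom V (φ : AdjoinRoot f →+* Module.End F V)
  have hsm : ∀ (r : AdjoinRoot f) (x : V), r • x = φ r x := fun _ _ => rfl
  have hmk : ∀ i, (AdjoinRoot.root f + 1) ^ i = AdjoinRoot.mk f ((X + C 1) ^ i) := fun i => by
    simp
  have hnil : (AdjoinRoot.root f + 1) ^ (k + 1) = 0 := by rw [hmk, AdjoinRoot.mk_self]
  obtain ⟨s, hs⟩ : ∃ s, AdjoinRoot.root f * s = 1 := by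
    have h4 := (IsNilpotent.isUnit_add_one ⟨_, hnil⟩).exists_right_inv
    rwa [add_assoc, one_add_one_eq_two, Dat.two F, add_zero] at h4
  refine ⟨k, AdjoinRoot f, inferInstance, inferInstance, inferInstance,
    ⟨fun c r x => by rw [hsm, hsm, map_smul]; rfl⟩, ⟨
    { pb := AdjoinRoot.powerBasis' hf
      s := s
      st := AdjoinRoot.liftAlgHom f (Algebra.ofId F _) s ?_
      dim := ?_
      mul_s := hs
      act := fun v => by rw [hsm]; exact LinearMap.congr_fun hφ v
      st_gen := AdjoinRoot.liftAlgHom_root _ _ _ _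
      nil := hnil
      soc := ?_
      top := ?_ }⟩⟩
  · have h4 : s + 1 = s * (AdjoinRoot.root f + 1) := by linear_combination -hs
    simp only [f, eval₂_pow, eval₂_add, eval₂_X, map_one, eval₂_one]
    rw [h4, mul_pow, hnil, mul_zero]
  · show f.natDegree = _
    rw [(monic_X_add_C (1 : F)).natDegree_pow, natDegree_X_add_C, mul_one]
  · intro r hr
    obtain ⟨p, rfl⟩ := AdjoinRoot.mk_surjective r
    have h4 : AdjoinRoot.mk f ((X + C 1) * p) = 0 := by simpa using hr
    obtain ⟨p', hp'⟩ := AdjoinRoot.mk_eq_zero.1 h4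
    have h5 : p = (X + C 1) ^ k * p' :=
      mul_left_cancel₀ (monic_X_add_C (1 : F)).ne_zero (by rw [hp']; ring)
    obtain ⟨p'', hp''⟩ := X_sub_C_dvd_sub_C_eval (a := (-1 : F)) (p := p')
    refine ⟨p'.eval (-1), ?_⟩
    show _ = _ • (AdjoinRoot.root f + 1) ^ k
    rw [hmk, AdjoinRoot.smul_mk, AdjoinRoot.mk_eq_mk, h5, smul_eq_C_mul]
    refine ⟨p'', ?_⟩
    rw [map_neg, sub_neg_eq_add] at hp''
    linear_combination (X + C 1) ^ k * hp''
  · by_contra h
    push Not at h
    refine h3 (LinearMap.ext fun v => ?_)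
    have := h v
    rwa [hsm, map_pow, map_add, map_one, AdjoinRoot.powerBasis'_gen, hφ] at this

theorem dk_sumHom_right {W : Submodule F V} (hW : q.NDeg W) (c : (q.res _ (ndeg_perp hW)).O) :
    q.dk (sumHom hW (1, c)) = (q.res _ (ndeg_perp hW)).dk c := by
  have h2 : ∀ a ∈ W, ∀ b : q.perp W, (q.act (sumHom hW (1, c)) - 1) (a + b) =
      (q.perp W).subtype (((q.res _ (ndeg_perp hW)).act c - 1) b) := fun a ha b => by
    rw [LinearMap.sub_apply, act_apply, map_add, sumHom_left hW _ ha, sumHom_right hW _ b.2]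
    simp
  have h1 : LinearMap.range (q.act (sumHom hW (1, c)) - 1) =
      (LinearMap.range ((q.res _ (ndeg_perp hW)).act c - 1)).map (q.perp W).subtype := by
    ext v
    constructor
    · rintro ⟨w, rfl⟩
      obtain ⟨a, ha, b, hb, rfl⟩ := exists_add_perp hW w
      exact ⟨_, ⟨_, rfl⟩, (h2 a ha ⟨b, hb⟩).symm⟩
    · rintro ⟨_, ⟨b, rfl⟩, rfl⟩
      exact ⟨_, h2 0 W.zero_mem b⟩
  rw [dk, h1, Submodule.finrank_map_subtype_eq, dk]

end DK

open DK in
theorem ns : NSStmt.{u} := by
  intro F V _ _ _ _ _ _ q g h4 hg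
  induction hn : finrank F V using Nat.strong_induction_on generalizing V with
  | _ n ih =>
  subst hn
  haveI : Nontrivial V := Module.nontrivial_of_finrank_pos (R := F) (by omega)
  by_cases hg1 : g = 1
  · obtain ⟨v, -, hv⟩ := exists_Q_ne (q := q) (W := ⊤) (by rw [finrank_top]; omega) 0
    exact ⟨rf _ hv, by simp [hg1], by rw [dk_rf_one]; exact odd_one⟩
  obtain ⟨k, R, _, _, _, _, ⟨D⟩⟩ := exists_dat g hg
  rcases Nat.even_or_odd k with ⟨j, hj⟩ | ho
  · rcases j with _ | j
    · refine absurd (O_ext fun x => ?_) hg1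
      obtain rfl : k = 0 := hj
      have h1 := D.nil
      rw [zero_add, pow_one] at h1
      refine veq_of_add F ?_
      rw [← D.act, one_apply]
      nth_rewrite 2 [← one_smul R x]
      rw [← add_smul, h1, zero_smul]
    · exact D.odd (j := j) (by omega)
  by_cases h : ∃ x : V, q.B (D.m • x) x ≠ 0
  · obtain ⟨x, hx⟩ := h
    obtain ⟨c, hc, hc'⟩ := D.single hx
    exact ⟨c, hc, hc' ▸ ho⟩
  push Not at h
  obtain ⟨W, hW, hgW, hd⟩ := D.pair h
  have h1 := finrank_add_perp hW
  obtain ⟨j, rfl⟩ := ho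
  obtain ⟨c, hc, hc'⟩ := ih _ (by omega) (q.perp W) (q.res _ (ndeg_perp hW))
    (resO (ndeg_perp hW) g (perp_inv hgW)) (by omega) (by
      obtain ⟨e, he⟩ := hg
      refine ⟨e, O_ext fun x => Subtype.ext ?_⟩
      have h2 := sumHom_right hW ((resO hW g hgW, resO (ndeg_perp hW) g (perp_inv hgW)) ^ 2 ^ e) x.2
      rw [map_pow, sumHom_resO, he] at h2
      exact h2.symm) rfl
  refine ⟨sumHom hW (1, c), ?_, by rwa [dk_sumHom_right]⟩
  rw [← sumHom_resO hW g hgW, ← map_mul, ← map_mul]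
  simp [hc]

end Cfsg.Agent.FS
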