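import Cfsg.Agent.Lib.FS.Final

/-!
# Real elements in the kernel of the Dickson invariant
-/

set_option autoImplicit false
set_option linter.unusedSectionVars false
set_option linter.style.haveILetI false

namespace Cfsg.Agent.FS

open Module QS Multiplicative

universe u

theorem finrank_range_comp {F A B C E : Type*} [Field F] [AddCommGroup A] [Module F A]
    [AddCommGroup B] [Module F B] [AddCommGroup C] [Module F C] [AddCommGroup E] [Module F E]
    {g : A →ₗ[F] E} {f : B →ₗ[F] C} (j : C →ₗ[F] E) (p : A →ₗ[F] B) (hj : Function.Injective j)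
    (hp : Function.Surjective p) (h : ∀ x, g x = j (f (p x))) :
    finrank F (LinearMap.range g) = finrank F (LinearMap.range f) := by
  rw [show g = j ∘ₗ f ∘ₗ p from LinearMap.ext h, LinearMap.range_comp, LinearMap.range_comp_of_range_eq_top _ (LinearMap.range_eq_top.2 hp)]
  exact (Submodule.equivMapOfInjective j hj _).finrank_eq.symm

variable {F V : Type u} [Field F] [Finite F] [CharP F 2] [AddCommGroup V] [Module F V] [Finite V]
  {q : QS F V}

theorem u_dk_one : q.dk 1 = 0 := by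
  rw [dk, show q.act 1 - 1 = 0 from sub_self _, LinearMap.range_zero, finrank_bot]

theorem u_dk_congr {V' : Type u} [AddCommGroup V'] [Module F V'] {q' : QS F V'} (e : V ≃ₗ[F] V')
    (he : ∀ x, q'.Q (e x) = q.Q x) (g : q.O) : q'.dk (congr e he g) = q.dk g := by
  refine finrank_range_comp e.toLinearMap e.symm.toLinearMap e.injective e.symm.surjective
    fun x => ?_
  obtain ⟨x, rfl⟩ := e.surjective x
  simp

theorem u_dk_lev (h : q.O) : q.hyp.dk (q.lev (1, h)) = q.dk h := by
  refine finrank_range_comp (LinearMap.inr F F _ ∘ₗ LinearMap.inl F V F)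
    (LinearMap.fst F V F ∘ₗ LinearMap.snd F F _) (fun a b h => by simpa using h)
    (fun a => ⟨(0, a, 0), rfl⟩) fun x => ?_
  ext <;> simp

theorem u_dk_sieg (c : Multiplicative V) : Even (q.hyp.dk (q.sieg c)) := by
  by_cases hc : c = 1
  · rw [hc, map_one, u_dk_one]; exact Even.zero
  obtain ⟨y, hy⟩ := q.exists_B_one (x := c.toAdd) hc
  let j : F × F →ₗ[F] F × V × F :=
    { toFun := fun s => (s.1 + s.2 * q.Q c.toAdd, s.2 • c.toAdd, 0)
      map_add' := fun a b => by ext <;> simp [add_smul]; ring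
      map_smul' := fun a b => by ext <;> simp [smul_smul]; ring }
  let p : F × V × F →ₗ[F] F × F :=
    { toFun := fun s => (q.B c.toAdd s.2.1, s.2.2)
      map_add' := fun a b => by simp
      map_smul' := fun a b => by simp }
  have := finrank_range_comp (g := q.hyp.act (q.sieg c) - 1) (f := LinearMap.id) j p ((injective_iff_map_eq_zero _).2 fun s hs => by
    have h2 : s.2 = 0 := (smul_eq_zero.1 (congrArg (fun x => x.2.1) hs)).resolve_right hc
    exact Prod.ext (by simpa [j, h2] using congrArg (fun x => x.1) hs) h2)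
    (fun s => ⟨(0, s.1 • y, s.2), by simp [p, hy]⟩) fun x => by ext <;> simp [j, p]; ring
  rw [LinearMap.range_id, finrank_top, finrank_prod, finrank_self] at this
  rw [dk, this]
  exact even_two

theorem u_dk_sum (dk : DkStmt.{u}) {W : Submodule F V} (h : q.NDeg W) (a : (q.res W h).O)
    (b : (q.res _ (ndeg_perp h)).O) :
    q.dk (sumHom h (a, b)) ≡ (q.res W h).dk a + (q.res _ (ndeg_perp h)).dk b [MOD 2] := by
  have hc := isCompl_perp h
  have h1 : q.dk (sumHom h (a, 1)) = (q.res W h).dk a := by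
    refine finrank_range_comp W.subtype (W.projectionOnto _ hc) W.subtype_injective
      (fun x => ⟨x, Submodule.projectionOnto_apply_left hc x⟩) fun x => ?_
    obtain ⟨y, hy, z, hz, rfl⟩ := exists_add_perp h x
    have e1 := Submodule.projectionOnto_apply_left hc ⟨y, hy⟩
    have e2 := Submodule.projectionOnto_apply_right hc ⟨z, hz⟩
    simp only at e1 e2
    simp [sumHom_left h _ hy, sumHom_right h _ hz, e1, e2]
  have h2 : q.dk (sumHom h (1, b)) = (q.res _ (ndeg_perp h)).dk b := by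
    refine finrank_range_comp (q.perp W).subtype
      ((q.perp W).projectionOnto _ hc.symm) (q.perp W).subtype_injective
      (fun x => ⟨x, Submodule.projectionOnto_apply_left hc.symm x⟩) fun x => ?_
    obtain ⟨y, hy, z, hz, rfl⟩ := exists_add_perp h x
    have e1 := Submodule.projectionOnto_apply_right hc.symm ⟨y, hy⟩
    have e2 := Submodule.projectionOnto_apply_left hc.symm ⟨z, hz⟩
    simp only at e1 e2
    simp [sumHom_left h _ hy, sumHom_right h _ hz, e1, e2]
  rw [← h1, ← h2, show (a, b) = (a, 1) * (1, b) by simp, map_mul]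
  exact dk F V q _ _

theorem exists_refl {y : V} (hy : q.Q y ≠ 0) :
    ∃ r : q.O, r y = y ∧ q.dk r = 1 ∧ ∀ g : q.O, g y = y → r * g = g * r := by
  let f : V →ₗ[F] F := (q.Q y)⁻¹ • q.B y
  have hy0 : y ≠ 0 := fun e => hy (by simp [e])
  refine ⟨mkO (LinearMap.id + LinearMap.toSpanSingleton F V y ∘ₗ f) fun x => ?_, by simp [f], ?_,
    fun g hg => O_ext fun x => ?_⟩
  · simp only [f, LinearMap.add_apply, LinearMap.id_apply, LinearMap.comp_apply,
      LinearMap.smul_apply, LinearMap.toSpanSingleton_apply, q.add, q.smul, map_smul, smul_eq_mul,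
      q.symm x y]
    grind
  · obtain ⟨z, hz⟩ := q.exists_B_one hy0
    refine (finrank_range_comp (f := LinearMap.id) (LinearMap.toSpanSingleton F V y) f
      (smul_left_injective F hy0) (fun c => ⟨(c * q.Q y) • z, by simp [f, hz, hy]⟩)
      fun x => by simp).trans ?_
    rw [LinearMap.range_id, finrank_top, finrank_self]
  · have : q.B y (g x) = q.B y x := by rw [← isoB g y x, hg]
    simp [f, hg, this]

variable (q) in
/-- the kernel of the Dickson invariant -/
def Om (dk : DkStmt.{u}) : Subgroup q.O where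
  carrier := {g | Even (q.dk g)}
  one_mem' := by simp [u_dk_one]
  mul_mem' {a b} ha hb := by
    have := dk F V q a b
    simp only [Set.mem_ofPred_eq, Nat.even_iff, Nat.ModEq] at *
    omega
  inv_mem' {a} ha := by
    have := dk F V q a a⁻¹
    rw [mul_inv_cancel, u_dk_one] at this
    simp only [Set.mem_ofPred_eq, Nat.even_iff, Nat.ModEq] at *
    omega

variable (q) in
/-- `2`-elements of vector stabilizers in the kernel of the Dickson invariant are real -/
def UU : Prop := ∀ (y : V) (g : q.O), g y = y → Even (q.dk g) → (∃ k : ℕ, g ^ 2 ^ k = 1) →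
  ∃ s : q.O, s y = y ∧ Even (q.dk s) ∧ s * g * s⁻¹ = g⁻¹

theorem uu_model (dk : DkStmt.{u}) (h : UU q) :
    Re2 (Om q.hyp dk ⊓ q.hyp.stab (1, 0, 0) : Subgroup q.hyp.O) := by
  obtain ⟨ψ, c₀, hψ⟩ := exists_psi F
  refine cliff_re2 _ (Multiplicative V) (Om q dk)
    (q.sieg.codRestrict _ fun n => ⟨u_dk_sieg n, by simp⟩)
    ((q.lev.comp ((1 : _ →* Fˣ).prod (Om q dk).subtype)).codRestrict _
      fun l => ⟨show Even (q.hyp.dk (q.lev (1, l.1))) by rw [u_dk_lev]; exact l.2, by simp⟩)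
    (fun l n => ofAdd (l.1 n.toAdd)) (sq_mult F) (fun a b e => ?_)
    (fun l n => Subtype.ext ((q.lev_sieg (1, l.1) n).trans (by
      rw [Units.val_one, one_smul]; rfl))) (fun g => ?_) fun lam L' hL => ?_
  · exact q.sieg_injective (congrArg (fun x => x.1) e)
  · obtain ⟨c, k, hk⟩ := exists_sieg_lev (μ := 1) (g := g.1) (by
      rw [Units.val_one, one_smul]; exact g.2.2)
    have h1 : q.lev (1, k) ∈ Om q.hyp dk := by
      have := (Om q.hyp dk).mul_mem ((Om q.hyp dk).inv_mem (u_dk_sieg c)) g.2.1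
      rwa [hk, inv_mul_cancel_left] at this
    exact ⟨c, ⟨k, show Even _ by rw [← u_dk_lev]; exact h1⟩, Subtype.ext hk⟩
  · obtain ⟨y, hy⟩ := exists_psi_eq q hψ lam
    have key : ∀ l, l ∈ L' ↔ l.1 y = y := fun l => by
      rw [hL]
      constructor
      · intro H
        have : l.1⁻¹ y = y := psi_inj q hψ fun w => by
          have := H (ofAdd w)
          rwa [hy, hy, toAdd_ofAdd, B_right] at this
        exact (inv_apply_eq.1 this).symm
      · intro H n
        rw [hy, ← ofAdd_toAdd n, hy, toAdd_ofAdd, ← isoB l.1 y n.toAdd, H]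
    rintro g ⟨k, hk⟩
    obtain ⟨s, h1, h2, h3⟩ := h y g.1.1 ((key _).1 g.2) g.1.2
      ⟨k, congrArg (fun x : L' => x.1.1) hk⟩
    exact isConj_iff.2 ⟨⟨⟨s, h2⟩, (key _).2 h1⟩, Subtype.ext (Subtype.ext h3)⟩

theorem uu (dk : DkStmt.{u}) (n : ℕ) : ∀ (V : Type u) [AddCommGroup V] [Module F V] [Finite V]
    (q : QS F V), finrank F V = n → UU q := by
  induction n using Nat.strong_induction_on with
  | _ n ih =>
  intro V _ _ _ q hn
  have key : ∀ (y : V) (g : q.O), y ≠ 0 → g y = y → Even (q.dk g) → (∃ k : ℕ, g ^ 2 ^ k = 1) →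
      ∃ s : q.O, s y = y ∧ Even (q.dk s) ∧ s * g * s⁻¹ = g⁻¹ := by
    intro y g hy0 h1 h2 h3
    by_cases hy : q.Q y = 0
    · obtain ⟨W, hW, e, he, a1, -, -, hd⟩ := exists_split (x := 0) hy (by simp)
        (by simpa using hy0.symm)
      obtain ⟨g, rfl⟩ := (congr e he).surjective g
      obtain ⟨k, hk⟩ := h3
      rw [← a1, congr_apply] at h1
      rw [u_dk_congr] at h2
      obtain ⟨s, hs⟩ := isConj_iff.1 (uu_model dk (ih _ (by omega) W (q.res W hW) rfl)
        ⟨g, h2, e.injective h1⟩ ⟨k, Subtype.ext ((congr e he).injective (by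
          rw [Subgroup.coe_pow, map_pow, hk, Subgroup.coe_one, map_one]))⟩)
      refine ⟨congr e he s.1, by rw [← a1, congr_apply, s.2.2], by rw [u_dk_congr]; exact s.2.1, ?_⟩
      rw [← map_inv, ← map_inv, ← map_mul, ← map_mul]
      exact congrArg _ (congrArg Subtype.val hs)
    · obtain ⟨s, hs⟩ := isConj_iff.1 (((main F V q).2.2 y hy).2 ⟨g, h1⟩)
      have hs' : s.1 * g * s.1⁻¹ = g⁻¹ := congrArg Subtype.val hs
      rcases Nat.even_or_odd (q.dk s.1) with h4 | h4
      · exact ⟨s.1, s.2, h4, hs'⟩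
      · obtain ⟨r, r1, r2, r3⟩ := exists_refl hy
        refine ⟨s.1 * r, by rw [mul_apply, r1, s.2], ?_, ?_⟩
        · have := dk F V q s.1 r
          simp only [r2, Nat.even_iff, Nat.odd_iff, Nat.ModEq] at *
          omega
        · rw [mul_assoc _ r, r3 g h1, ← hs']
          group
  intro y g h1 h2 h3
  by_cases hy0 : y = 0
  · rcases subsingleton_or_nontrivial V with h | h
    · exact ⟨1, rfl, by simp [u_dk_one], O_ext fun x => Subsingleton.elim _ _⟩
    · obtain ⟨k, hk⟩ := h3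
      obtain ⟨v, hv0, hv⟩ := exists_fix_O (isPGroup_zpowers hk)
      obtain ⟨s, -, h4⟩ := key v g hv0 (hv _ (Subgroup.mem_zpowers g)) h2 ⟨k, hk⟩
      exact ⟨s, by simp [hy0], h4⟩
  · exact key y g hy0 h1 h2 h3

theorem uni (dk : DkStmt.{u}) : UniStmt.{u} := by
  intro F V _ _ _ _ _ _ q g h1 h2
  obtain ⟨s, -, h3, h4⟩ := uu dk _ V q rfl 0 g (by simp) h1 h2
  exact ⟨s, h4, h3⟩

theorem sumHom_inv {W : Submodule F V} (h : q.NDeg W) {g : q.O} (hg : ∀ x ∈ W, g x ∈ W)
    {a : (q.res W h).O} {b : (q.res _ (ndeg_perp h)).O}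
    (ha : a * resO h g hg * a⁻¹ = (resO h g hg)⁻¹)
    (hb : b * resO (ndeg_perp h) g (perp_inv hg) * b⁻¹ = (resO (ndeg_perp h) g (perp_inv hg))⁻¹) :
    sumHom h (a, b) * g * (sumHom h (a, b))⁻¹ = g⁻¹ := by
  conv_lhs => rw [← sumHom_resO h g hg]
  conv_rhs => rw [← sumHom_resO h g hg]
  rw [← map_inv, ← map_inv, ← map_mul, ← map_mul]
  exact congrArg _ (Prod.ext ha hb)

theorem noone (dk : DkStmt.{u}) (n : ℕ) : ∀ (V : Type u) [AddCommGroup V] [Module F V] [Finite V]
    (q : QS F V) (g : q.O), finrank F V = n → (∀ x, g x = x → x = 0) →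
    ∃ s : q.O, s * g * s⁻¹ = g⁻¹ ∧ 2 * q.dk s ≡ n [MOD 4] := by
  induction n using Nat.strong_induction_on with
  | _ n ih =>
  intro V _ _ _ q g hn hg
  rcases subsingleton_or_nontrivial V with h | h
  · refine ⟨1, O_ext fun x => Subsingleton.elim _ _, ?_⟩
    rw [u_dk_one, ← hn, finrank_zero_of_subsingleton]
  by_cases hW : ∀ W : Submodule F V, (∀ x ∈ W, g x ∈ W) → q.NDeg W → W = ⊥ ∨ W = ⊤
  · obtain ⟨s, hs, hs'⟩ := cyc F V q g hW fun k hk => by
      obtain ⟨v, hv0, hv⟩ := exists_fix_O (isPGroup_zpowers hk)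
      exact hv0 (hg v (hv _ (Subgroup.mem_zpowers g)))
    exact ⟨s, hs, by rw [hs', hn]⟩
  · push Not at hW
    obtain ⟨W, h1, hW, h2, h3⟩ := hW
    obtain ⟨d1, d2⟩ := finrank_lt_of_ne hW h2 h3
    obtain ⟨a, ha, ha'⟩ := ih _ (hn ▸ d1) W _ (resO hW g h1) rfl fun x hx =>
      Subtype.ext (hg _ (congrArg Subtype.val hx))
    obtain ⟨b, hb, hb'⟩ := ih _ (hn ▸ d2) _ _ (resO (ndeg_perp hW) g (perp_inv h1)) rfl fun x hx =>
      Subtype.ext (hg _ (congrArg Subtype.val hx))
    refine ⟨_, sumHom_inv hW h1 ha hb, ?_⟩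
    have a1 := u_dk_sum dk hW a b
    have a2 := finrank_add_perp hW
    simp only [Nat.ModEq] at *
    omega

theorem re_om (dk : DkStmt.{u}) (ns : NSStmt.{u}) (h4 : finrank F V % 4 = 0) (g : q.O)
    (hg : Even (q.dk g)) : ∃ s : q.O, s * g * s⁻¹ = g⁻¹ ∧ Even (q.dk s) := by
  obtain ⟨n, hn, hW⟩ := fitting (bb g) (bb_adj g)
  have h1 : ∀ x ∈ LinearMap.ker (bb g ^ n), g x ∈ LinearMap.ker (bb g ^ n) :=
    ker_inv (bb_comm (Or.inl (by simp))) n
  have h2 : ∀ x, resO (ndeg_perp hW) g (perp_inv h1) x = x → x = 0 := fun x hx => by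
    have a1 : g x = x := congrArg Subtype.val hx
    refine Subtype.ext (Submodule.disjoint_def.1 (isCompl_perp hW).disjoint _ ?_ x.2)
    generalize (x : V) = x' at a1
    obtain ⟨m, rfl⟩ := Nat.exists_eq_succ_of_ne_zero hn
    rw [LinearMap.mem_ker, pow_succ, Module.End.mul_apply, bb_apply, a1,
      (q.stab _).inv_mem a1, vadd_self F, map_zero]
  obtain ⟨b, hb, hb'⟩ := noone dk _ _ _ _ rfl h2
  have h3 : (q.res _ (ndeg_perp hW)).dk (resO (ndeg_perp hW) g (perp_inv h1)) =
      finrank F (q.perp (LinearMap.ker (bb g ^ n))) :=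
    LinearMap.finrank_range_of_inj ((injective_iff_map_eq_zero _).2 fun x hx =>
      h2 x (sub_eq_zero.1 hx))
  have h5 : ∃ k : ℕ, resO hW g h1 ^ 2 ^ k = 1 := by
    refine two_of_bb (n := n) (LinearMap.ext fun x => Subtype.ext ?_)
    have : ∀ (m : ℕ) x, ((bb (resO hW g h1) ^ m) x : V) = (bb g ^ m) x := fun m => by
      induction m with
      | zero => simp
      | succ m ih =>
        intro x
        rw [pow_succ, pow_succ, Module.End.mul_apply, Module.End.mul_apply, ih, bb_apply, bb_apply,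
          Submodule.coe_add, resO_apply]
        congr 2
        rw [eq_comm, inv_apply_eq, ← resO_apply hW g h1, apply_inv]
    rw [this]
    exact x.2
  have a1 := u_dk_sum dk hW (resO hW g h1) (resO (ndeg_perp hW) g (perp_inv h1))
  rw [sumHom_resO, h3] at a1
  have a2 := finrank_add_perp hW
  obtain ⟨a, ha, ha'⟩ := uni dk F _ _ (resO hW g h1) (by
    simp only [Nat.ModEq, Nat.even_iff] at *
    omega) h5
  rcases Nat.even_or_odd ((q.res _ (ndeg_perp hW)).dk b) with h6 | h6
  · refine ⟨_, sumHom_inv hW h1 ha hb, ?_⟩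
    have a3 := u_dk_sum dk hW a b
    simp only [Nat.ModEq, Nat.even_iff] at *
    omega
  · obtain ⟨c, hc, hc'⟩ := ns F _ _ (resO hW g h1) (by
      simp only [Nat.ModEq, Nat.odd_iff] at *
      omega) h5
    refine ⟨_, sumHom_inv hW h1 (a := a * c) (by rw [mul_assoc a, hc, ← ha]; group) hb, ?_⟩
    have a3 := u_dk_sum dk hW (a * c) b
    have a4 := dk F _ _ a c
    simp only [Nat.ModEq, Nat.even_iff, Nat.odd_iff] at *
    omega

theorem fs_omega (dk : DkStmt.{u}) (com : ComStmt.{u}) (ns : NSStmt.{u})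
    (h4 : finrank F V % 4 = 0) (h6 : 6 ≤ finrank F V) {G : Type u} [Group G] (e : q.O ≃* G)
    (χ : IrrCharacter (commutator G)) :
    (Nat.card (commutator G) : ℂ)⁻¹ * ∑ᶠ g : commutator G, (χ : _ → ℂ) (g * g) = 1 := by
  obtain ⟨h1, h2⟩ := com F V q h6
  obtain ⟨h3, h5, -⟩ := main F V q
  have h7 : (commutator q.O).map e.toMonoidHom = commutator G := by
    rw [map_commutator_eq, MonoidHom.range_eq_top.2 e.surjective]; rfl
  refine fs_surj' (G := commutator q.O) ((e.toMonoidHom.comp (Subgroup.subtype _)).codRestrict _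
    fun g => h7.le (Subgroup.mem_map_of_mem _ g.2)) (fun g => ?_) (idx _ _ h1 h3 h5) (fun g => ?_) χ
  · obtain ⟨x, hx, hx'⟩ := h7.ge g.2
    exact ⟨⟨x, hx⟩, Subtype.ext hx'⟩
  · obtain ⟨s, hs, hs'⟩ := re_om dk ns h4 g.1 ((h2 _).1 g.2)
    exact isConj_iff.2 ⟨⟨s, (h2 _).2 hs'⟩, Subtype.ext hs⟩

end Cfsg.Agent.FS
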